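import Cfsg.Agent.Lib.SL2.Torus

/-! Products of two elements of `GL₂` with prescribed characteristic polynomial (up to inversion). -/

set_option autoImplicit false

namespace Cfsg.Agent.EG

open Matrix Cfsg.Agent.SL2

variable {F : Type*} [Field F]

/-- Two by two matrices. -/
abbrev M2 (F : Type*) := Matrix (Fin 2) (Fin 2) F

theorem transp {M N : M2 F} (hM : ¬ IsScal M) (hN : ¬ IsScal N) (ht : N.trace = M.trace) (hd : N.det = M.det)
    {t d t' : F} (h : ∃ Z : M2 F, Z.trace = t ∧ Z.det = d ∧ (N * Z).trace = t') :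
    ∃ Z : M2 F, Z.trace = t ∧ Z.det = d ∧ (M * Z).trace = t' := by
  obtain ⟨Z, h1, h2, h3⟩ := h
  obtain ⟨P, hP, e⟩ := exists_intertwine hN hM ht hd
  have hP1 : P⁻¹ * P = 1 := nonsing_inv_mul P (isUnit_iff_ne_zero.2 hP)
  have hP2 : P * P⁻¹ = 1 := mul_nonsing_inv P (isUnit_iff_ne_zero.2 hP)
  refine ⟨P * Z * P⁻¹, by rw [trace_mul_cycle, hP1, one_mul, h1],
    by rw [det_mul, det_mul, mul_right_comm, ← det_mul, hP2, det_one, one_mul, h2], ?_⟩
  rw [← mul_assoc, ← mul_assoc, ← e, trace_mul_comm, ← mul_assoc, ← mul_assoc, hP1, one_mul, h3]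

theorem mac [Finite F] {M : M2 F} (h : M.trace ^ 2 ≠ 4 * M.det) (t d t' : F) :
    ∃ Z : M2 F, Z.trace = t ∧ Z.det = d ∧ (M * Z).trace = t' := by
  refine transp (not_isScal_of_disc h) (not_isScal_comp _ _) (trace_comp _ _) (det_comp _ _) ?_
  generalize M.trace = r at h
  generalize M.det = m at h
  have h' : 4 * m - r ^ 2 ≠ 0 := sub_ne_zero.2 h.symm
  obtain ⟨a0, c0, e1, e2⟩ : ∃ a0 c0 : F, 2 * a0 + r * c0 = t ∧ r * a0 + 2 * m * c0 = r * t - t' :=
    ⟨(2 * m * t - r * (r * t - t')) * (4 * m - r ^ 2)⁻¹, (2 * (r * t - t') - r * t) * (4 * m - r ^ 2)⁻¹,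
      by linear_combination t * mul_inv_cancel₀ h', by linear_combination (r * t - t') * mul_inv_cancel₀ h'⟩
  obtain ⟨x, y, hxy⟩ := nf_universal (Or.inl h) (nf r m a0 c0 - d)
  unfold nf at hxy
  refine ⟨!![x + a0, t' + m * (y + c0) - r * (t - (x + a0)); y + c0, t - (x + a0)], by simp [trace_fin_two], ?_, ?_⟩
  · rw [det_fin_two_of]
    linear_combination -hxy - (x + a0) * e1 - (y + c0) * e2
  · simp [SL2.comp, trace_fin_two]

theorem mac2 {M : M2 F} (hM : ¬ IsScal M) {m : F} (ht : M.trace = 2 * m) (hd : M.det = m ^ 2) {t d t' : F}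
    (h : t' ≠ m * t ∨ ∃ l, l * (t - l) = d) : ∃ Z : M2 F, Z.trace = t ∧ Z.det = d ∧ (M * Z).trace = t' := by
  refine transp hM (N := !![m, 1; 0, m]) (by simp [IsScal]) (by simp [ht, trace_fin_two, two_mul])
    (by simp [hd, det_fin_two, sq]) ?_
  by_cases e : t' = m * t
  · obtain ⟨l, hl⟩ := h.resolve_left (not_not.2 e)
    exact ⟨!![l, 0; 0, t - l], by simp [trace_fin_two], by simp [det_fin_two, hl], by simp [trace_fin_two, e]; ring⟩
  · have := sub_ne_zero.2 e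
    exact ⟨!![0, -d / (t' - m * t); t' - m * t, t], by simp [trace_fin_two], by simp [det_fin_two]; field_simp,
      by simp [trace_fin_two]⟩

/-- The matrix or its inverse has trace `t` and determinant `d`. -/
def Kc (t d : F) (X : M2 F) : Prop := (X.trace = t ∧ X.det = d) ∨ (d * X.trace = t ∧ d * X.det = 1)

theorem Kc.det_ne {t d : F} (hd : d ≠ 0) {X : M2 F} (h : Kc t d X) : X.det ≠ 0 := by
  rcases h with h | h
  · rwa [h.2]
  · exact right_ne_zero_of_mul_eq_one h.2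

theorem trace_inv {X : M2 F} (h : X.det ≠ 0) : X.det * X⁻¹.trace = X.trace := by
  rw [inv_def, Ring.inverse_eq_inv', adjugate_fin_two, trace_smul, smul_eq_mul, mul_inv_cancel_left₀ h]
  simp [trace_fin_two, add_comm]

theorem Kc.inv {t d : F} (hd : d ≠ 0) {X : M2 F} (h : Kc t d X) : Kc t d X⁻¹ := by
  have h0 := h.det_ne hd
  have h1 := trace_inv h0
  have h2 : X.det * X⁻¹.det = 1 := by rw [det_nonsing_inv, Ring.inverse_eq_inv', mul_inv_cancel₀ h0]
  rcases h with h | h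
  · exact Or.inr ⟨by rw [← h.1, ← h.2, h1], by rw [← h.2, h2]⟩
  · exact Or.inl ⟨by linear_combination h.1 + d * h1 - X⁻¹.trace * h.2, by linear_combination d * h2 - X⁻¹.det * h.2⟩

theorem Kc.transpose {t d : F} {X : M2 F} (h : Kc t d X) : Kc t d Xᵀ := by
  unfold Kc; rwa [trace_transpose, det_transpose]

/-- A product of two elements of the class. -/
def Fac (t d : F) (M : M2 F) : Prop := ∃ X Y, Kc t d X ∧ Kc t d Y ∧ M = X * Y

theorem fac_of {t d : F} (hd : d ≠ 0) {M Z : M2 F} (h1 : Kc t d Z) (h2 : Kc t d (M * Z)) : Fac t d M :=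
  ⟨_, _, h2, h1.inv hd, by rw [mul_nonsing_inv_cancel_right _ _ (isUnit_iff_ne_zero.2 (h1.det_ne hd))]⟩

theorem fac_one {t d : F} (hd : d ≠ 0) : Fac t d 1 :=
  fac_of hd (Z := SL2.comp t d) (Or.inl (by simp)) (Or.inl (by simp))

theorem fac_of_det {t d : F} (hd : d ≠ 0) {M : M2 F} (hM : M.det = 1)
    (h : ∃ Z : M2 F, Z.trace = t ∧ Z.det = d ∧ (M * Z).trace = t) : Fac t d M := by
  obtain ⟨Z, h1, h2, h3⟩ := h
  exact fac_of hd (Or.inl ⟨h1, h2⟩) (Or.inl ⟨h3, by rw [det_mul, hM, h2, one_mul]⟩)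

theorem eq_of_isScal {M : M2 F} (h : IsScal M) : M = M 0 0 • (1 : M2 F) :=
  mat_ext (by simp) (by simp [h.1]) (by simp [h.2.1]) (by simp [h.2.2])

theorem fac_odd [Finite F] (h2 : (2 : F) ≠ 0) {t : F} (ht : t ≠ 0) {M : M2 F} (hM : M.det = 1) : Fac t (-1) M := by
  have hd : (-1 : F) ≠ 0 := by simp
  have key : ∀ m : F, m ^ 2 = 1 → (∃ Z : M2 F, Z.trace = t ∧ Z.det = -1 ∧ (M * Z).trace = m * t) → Fac t (-1) M := by
    rintro m hm ⟨Z, h1, h3, h4⟩
    have h5 : (M * Z).det = -1 := by rw [det_mul, hM, h3, one_mul]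
    rcases sq_eq_one_iff.1 hm with rfl | rfl
    · exact fac_of hd (Or.inl ⟨h1, h3⟩) (Or.inl ⟨by rw [h4, one_mul], h5⟩)
    · exact fac_of hd (Or.inl ⟨h1, h3⟩) (Or.inr ⟨by rw [h4]; ring, by rw [h5]; ring⟩)
  by_cases hs : IsScal M
  · have e := eq_of_isScal hs
    generalize M 0 0 = m at e
    subst e
    exact key m (by simpa using hM) ⟨SL2.comp t (-1), by simp, by simp, by simp⟩
  by_cases hr : M.trace ^ 2 = 4 * M.det
  · have h3 : M.trace = 2 * (M.trace / 2) := by field_simp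
    have h4 : (M.trace / 2) ^ 2 = 1 := by rw [div_pow, hr, hM]; field_simp; norm_num
    refine key (-(M.trace / 2)) (by rw [neg_sq, h4]) (mac2 hs h3 (by rw [hM, h4]) (Or.inl fun e => ?_))
    have h5 : M.trace / 2 ≠ 0 := by rintro e; rw [e] at h4; simp at h4
    exact mul_ne_zero h2 (mul_ne_zero h5 ht) (by linear_combination -e)
  · exact fac_of_det hd hM (mac hr _ _ _)

theorem fac_split [Finite F] (h2 : (2 : F) = 0) {l m : F} (hd : l * m ≠ 0) {M : M2 F} (hM : M.det = 1) :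
    Fac (l + m) (l * m) M := by
  have h1 : ∀ x : F, x ^ 2 = 1 → x = 1 := fun x hx =>
    sub_eq_zero.1 (pow_eq_zero_iff two_ne_zero |>.1 (by linear_combination hx + (1 - x) * h2))
  by_cases hs : IsScal M
  · have e := eq_of_isScal hs
    generalize M 0 0 = c at e
    subst e
    rw [h1 c (by simpa using hM), one_smul]
    exact fac_one hd
  by_cases hr : M.trace ^ 2 = 4 * M.det
  · refine fac_of_det hd hM (mac2 hs (m := 1) ?_ (by simp [hM]) (Or.inr ⟨l, by ring⟩))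
    rw [h2, zero_mul]
    exact pow_eq_zero_iff two_ne_zero |>.1 (by linear_combination hr + 2 * M.det * h2)
  · exact fac_of_det hd hM (mac hr _ _ _)

theorem fac_four [Finite F] (h2 : (2 : F) = 0) {d : F} (hd : d ^ 2 + d + 1 = 0) (t : F) {M : M2 F}
    (hM : M.det ^ 3 = 1) (ht : M.trace ≠ 0) : Fac t d M := by
  have h0 : d ≠ 0 := by rintro rfl; simp at hd
  have hr : M.trace ^ 2 ≠ 4 * M.det := fun e => ht (pow_eq_zero_iff two_ne_zero |>.1
    (by linear_combination e + 2 * M.det * h2))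
  have h3 : (M.det - 1) * ((M.det - d) * (M.det - d ^ 2)) = 0 := by
    linear_combination hM + (-M.det ^ 2 + M.det * d - d + 1) * hd
  rcases mul_eq_zero.1 h3 with e | e
  · exact fac_of_det h0 (sub_eq_zero.1 e) (mac hr _ _ _)
  rcases mul_eq_zero.1 e with e | e
  · obtain ⟨Z, h4, h5, h6⟩ := mac hr t d (d ^ 2 * t)
    exact fac_of h0 (Or.inl ⟨h4, h5⟩) (Or.inr ⟨by rw [h6]; linear_combination (d - 1) * t * hd,
      by rw [det_mul, h5, sub_eq_zero.1 e]; linear_combination (d - 1) * hd⟩)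
  · obtain ⟨Z, h4, h5, h6⟩ := mac hr (d ^ 2 * t) (d ^ 2) t
    exact fac_of h0 (Or.inr ⟨by rw [h4]; linear_combination (d - 1) * t * hd, by rw [h5]; linear_combination (d - 1) * hd⟩)
      (Or.inl ⟨h6, by rw [det_mul, h5, sub_eq_zero.1 e]; linear_combination d * (d - 1) * hd⟩)

theorem not_dvd_orderOf (p : ℕ) [Fact p.Prime] [CharP F p] [Finite F] {g : GL (Fin 2) F}
    (h : g.1.trace ^ 2 ≠ 4 * g.1.det) : ¬ p ∣ orderOf g := by
  intro hp
  have h1 := (GL_orderOf_eq_char_iff p _).1 (orderOf_pow_orderOf_div (orderOf_pos g).ne' hp)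
  obtain ⟨a, b, e⟩ := (comm_iff (not_isScal_of_disc h) (g ^ (orderOf g / p)).1).1 (by
    rw [← Units.val_mul, ← Units.val_mul, ← pow_succ, ← pow_succ'])
  rw [e, det_smul_one_add, trace_add, trace_smul, trace_smul, trace_one] at h1
  obtain ⟨h2, h3, h4⟩ := h1
  have hb : b ≠ 0 := by rintro rfl; exact h2 (by simp [IsScal])
  simp only [nf, Fintype.card_fin, Nat.cast_ofNat, smul_eq_mul] at h3 h4
  exact mul_ne_zero (pow_ne_zero 2 hb) (sub_ne_zero.2 h)
    (by linear_combination (a * 2 + b * g.1.trace + 2) * h3 - 4 * h4)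

end Cfsg.Agent.EG
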