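import Cfsg.Agent.Lib.EG.GL2
import Mathlib.LinearAlgebra.SymplecticGroup

/-! Products of two conjugates of a Levi element of the Siegel parabolic in `Sp₄`. -/

set_option autoImplicit false

namespace Cfsg.Agent.EG

open Matrix Cfsg.Agent.SL2 SymplecticGroup

variable {F : Type*} [Field F]

/-- The group `Sp₄`. -/
abbrev Sp4 (F : Type*) [Field F] := symplecticGroup (Fin 2) F

theorem fpf {X T : M2 F} (h1 : X.det ≠ 1) (h2 : (1 + X.det) ^ 2 ≠ X.trace ^ 2) (hT : Tᵀ = T) :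
    ∃ R : M2 F, Rᵀ = R ∧ X * R * Xᵀ - R = T := by
  have hT' : T 1 0 = T 0 1 := by simpa using congrFun (congrFun hT 0) 1
  obtain ⟨N, hN⟩ : ∃ N : Matrix (Fin 3) (Fin 3) F, N = !![X 0 0 ^ 2 - 1, 2 * X 0 0 * X 0 1, X 0 1 ^ 2;
      X 0 0 * X 1 0, X 0 0 * X 1 1 + X 0 1 * X 1 0 - 1, X 0 1 * X 1 1;
      X 1 0 ^ 2, 2 * X 1 0 * X 1 1, X 1 1 ^ 2 - 1] := ⟨_, rfl⟩
  have hd : N.det = (X.det - 1) * ((1 + X.det) ^ 2 - X.trace ^ 2) := by
    rw [hN, det_fin_three, det_fin_two, trace_fin_two]; simp; ring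
  have hu : IsUnit N.det := by
    rw [hd]; exact (mul_ne_zero (sub_ne_zero.2 h1) (sub_ne_zero.2 h2)).isUnit
  obtain ⟨v, hv⟩ : ∃ v : Fin 3 → F, N *ᵥ v = ![T 0 0, T 0 1, T 1 1] :=
    ⟨N⁻¹ *ᵥ _, by rw [mulVec_mulVec, mul_nonsing_inv _ hu, one_mulVec]⟩
  have e0 := congrFun hv 0
  have e1 := congrFun hv 1
  have e2 := congrFun hv 2
  simp [hN, mulVec, dotProduct, Fin.sum_univ_three] at e0 e1 e2
  refine ⟨!![v 0, v 1; v 1, v 2], mat_ext (by simp) (by simp) (by simp) (by simp), mat_ext ?_ ?_ ?_ ?_⟩ <;>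
    simp [mul_apply, Fin.sum_univ_two]
  · linear_combination e0
  · linear_combination e1
  · linear_combination e1 - hT'
  · linear_combination e2

theorem inv_blocks {s : Sp4 F} {P Q R S : M2 F} (h : s.1 = fromBlocks P Q R S) :
    (s⁻¹).1 = fromBlocks Sᵀ (-Qᵀ) (-Rᵀ) Pᵀ := by
  rw [coe_inv, h, J, fromBlocks_neg, fromBlocks_transpose, fromBlocks_multiply, fromBlocks_multiply]
  simp

theorem blocks (g : Sp4 F) : ∃ A B C D : M2 F, g.1 = fromBlocks A B C D := ⟨_, _, _, _, (fromBlocks_toBlocks _).symm⟩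

theorem rels {g : Sp4 F} {A B C D : M2 F} (h : g.1 = fromBlocks A B C D) :
    Aᵀ * C = Cᵀ * A ∧ Bᵀ * D = Dᵀ * B ∧ Aᵀ * D - Cᵀ * B = 1 := fromBlocks_mem_iff.1 (h ▸ g.2)

theorem conj_blocks {g : Sp4 F} {A B C D P Q R S : M2 F} (h : g.1 = fromBlocks A B C D)
    (hs : Pᵀ * R = Rᵀ * P ∧ Qᵀ * S = Sᵀ * Q ∧ Pᵀ * S - Rᵀ * Q = 1) :
    ∃ g' : Sp4 F, IsConj g g' ∧ g'.1 = fromBlocks ((P * A + Q * C) * Sᵀ - (P * B + Q * D) * Rᵀ)
      ((P * B + Q * D) * Pᵀ - (P * A + Q * C) * Qᵀ) ((R * A + S * C) * Sᵀ - (R * B + S * D) * Rᵀ)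
      ((R * B + S * D) * Pᵀ - (R * A + S * C) * Qᵀ) := by
  let s : Sp4 F := ⟨fromBlocks P Q R S, fromBlocks_mem_iff.2 hs⟩
  refine ⟨s * g * s⁻¹, isConj_iff.2 ⟨s, rfl⟩, ?_⟩
  rw [Submonoid.coe_mul, Submonoid.coe_mul, inv_blocks (s := s) rfl, h]
  change fromBlocks P Q R S * _ * _ = _
  rw [fromBlocks_multiply, fromBlocks_multiply]
  simp only [Matrix.mul_neg]
  congr 1 <;> abel

theorem conjJ {g : Sp4 F} {A B C D : M2 F} (h : g.1 = fromBlocks A B C D) :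
    ∃ g' : Sp4 F, IsConj g g' ∧ g'.1 = fromBlocks D (-C) (-B) A := by
  simpa using conj_blocks (P := 0) (Q := -1) (R := 1) (S := 0) h (by simp)

theorem conjLo {g : Sp4 F} {A B C D R : M2 F} (h : g.1 = fromBlocks A B C D) (hR : Rᵀ = R) :
    ∃ g' : Sp4 F, IsConj g g' ∧ g'.1 = fromBlocks (A - B * R) B (R * A + C - (R * B + D) * R) (R * B + D) := by
  simpa [hR] using conj_blocks (P := 1) (Q := 0) (R := R) (S := 1) h (by simp [hR])

theorem conjUp {g : Sp4 F} {A B C D R : M2 F} (h : g.1 = fromBlocks A B C D) (hR : Rᵀ = R) :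
    ∃ g' : Sp4 F, IsConj g g' ∧ g'.1 = fromBlocks (A + R * C) (B + R * D - (A + R * C) * R) C (D - C * R) := by
  simpa [hR] using conj_blocks (P := 1) (Q := R) (R := 0) (S := 1) h (by simp [hR])

theorem tr_mul_inv {P : M2 F} (hP : P.det ≠ 0) : Pᵀ * P⁻¹ᵀ = 1 := by
  rw [← transpose_mul, nonsing_inv_mul _ hP.isUnit, transpose_one]

theorem conjLev {g : Sp4 F} {A B C D P : M2 F} (h : g.1 = fromBlocks A B C D) (hP : P.det ≠ 0) :
    ∃ g' : Sp4 F, IsConj g g' ∧ g'.1 = fromBlocks (P * A * P⁻¹) (P * B * Pᵀ) (P⁻¹ᵀ * C * P⁻¹) (P⁻¹ᵀ * D * Pᵀ) := by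
  simpa using conj_blocks (P := P) (Q := 0) (R := 0) (S := P⁻¹ᵀ) h (by simp [tr_mul_inv hP])

/-- Admissible parameters. -/
structure Ok (t d : F) : Prop where
  h0 : d ≠ 0
  h1 : d ≠ 1
  h2 : (1 + d) ^ 2 ≠ t ^ 2
  h3 : t ^ 2 ≠ 4 * d

/-- The Levi element. -/
noncomputable def xl {t d : F} (h : Ok t d) : Sp4 F :=
  ⟨fromBlocks (SL2.comp t d) 0 0 (SL2.comp t d)⁻¹ᵀ,
    fromBlocks_mem_iff.2 (by simp [tr_mul_inv (P := SL2.comp t d) (by simpa using h.h0)])⟩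

theorem eq_of_lower {g g' : Sp4 F} {X E Y Y' : M2 F} (h : g.1 = fromBlocks X 0 E Y)
    (h' : g'.1 = fromBlocks X 0 E Y') : g = g' := by
  have e := (rels h).2.2
  have e' := (rels h').2.2
  simp only [Matrix.mul_zero, sub_zero] at e e'
  apply Subtype.ext
  rw [h, h', ← inv_eq_right_inv e, ← inv_eq_right_inv e']

theorem diag_conj0 {t d : F} (h : Ok t d) {g : Sp4 F} {X Y : M2 F} (hg : g.1 = fromBlocks X 0 0 Y)
    (ht : X.trace = t) (hd : X.det = d) : IsConj (xl h) g := by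
  obtain ⟨P, hP, e⟩ := exists_intertwine (m := SL2.comp t d) (n := X) (not_isScal_comp _ _)
    (not_isScal_of_disc (by rw [ht, hd]; exact h.h3)) (by simp [ht]) (by simp [hd])
  obtain ⟨g', h1, h2⟩ := conjLev (g := xl h) rfl hP
  rw [e, mul_nonsing_inv_cancel_right _ _ hP.isUnit] at h2
  simp only [Matrix.mul_zero, Matrix.zero_mul] at h2
  rwa [eq_of_lower hg h2]

theorem inv_of_rel {g : Sp4 F} {X B C Y : M2 F} (hg : g.1 = fromBlocks X B C Y) (h : B = 0 ∨ C = 0) :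
    Y = X⁻¹ᵀ := by
  have e := (rels hg).2.2
  have : Xᵀ * Y = 1 := by rcases h with rfl | rfl <;> simpa using e
  rw [transpose_nonsing_inv, inv_eq_right_inv this]

theorem diag_conj {t d : F} (h : Ok t d) {g : Sp4 F} {X Y : M2 F} (hg : g.1 = fromBlocks X 0 0 Y)
    (hX : Kc t d X) : IsConj (xl h) g := by
  rcases hX with hX | hX
  · exact diag_conj0 h hg hX.1 hX.2
  obtain ⟨g', h1, h2⟩ := conjJ hg
  rw [neg_zero] at h2
  have h0 : X.det ≠ 0 := right_ne_zero_of_mul_eq_one hX.2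
  have h3 := trace_inv h0
  have h4 : X.det * X⁻¹.det = 1 := by rw [det_nonsing_inv, Ring.inverse_eq_inv', mul_inv_cancel₀ h0]
  have hY := inv_of_rel hg (Or.inl rfl)
  refine (diag_conj0 h h2 ?_ ?_).trans h1.symm
  · rw [hY, trace_transpose]; linear_combination hX.1 + d * h3 - X⁻¹.trace * hX.2
  · rw [hY, det_transpose]; linear_combination d * h4 - X⁻¹.det * hX.2

theorem low_conj {t d : F} (h : Ok t d) {g : Sp4 F} {X E Y : M2 F} (hg : g.1 = fromBlocks X 0 E Y)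
    (hX : Kc t d X) : IsConj (xl h) g := by
  have h0 := hX.det_ne h.h0
  have hY := inv_of_rel hg (Or.inl rfl)
  obtain ⟨R, hR, e⟩ := fpf (X := Xᵀ) (T := -(Xᵀ * E)) (by
      rw [det_transpose]
      rcases hX with hX | hX
      · rw [hX.2]; exact h.h1
      · intro e; rw [e, mul_one] at hX; exact h.h1 hX.2)
    (by
      rw [det_transpose, trace_transpose]
      rcases hX with hX | hX
      · rw [hX.1, hX.2]; exact h.h2
      · intro e
        exact h.h2 (by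
          linear_combination d ^ 2 * e + (d * X.trace + t) * hX.1 - (2 * d + d * X.det + 1) * hX.2))
    (by rw [transpose_neg, transpose_mul, transpose_transpose, (rels hg).1])
  obtain ⟨g', h1, h2⟩ := conjLo hg hR
  have h3 : R * X + E - Y * R = 0 := by
    have h4 : X⁻¹ᵀ * Xᵀ = 1 := by rw [← transpose_mul, mul_nonsing_inv _ h0.isUnit, transpose_one]
    have h5 := congrArg (X⁻¹ᵀ * ·) e
    simp only [transpose_transpose, Matrix.mul_sub, Matrix.mul_neg, ← Matrix.mul_assoc, h4, Matrix.one_mul] at h5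
    rw [hY, add_sub_right_comm, h5, neg_add_cancel]
  simp only [Matrix.mul_zero, Matrix.zero_mul, zero_add, sub_zero, h3] at h2
  exact (diag_conj h h2 hX).trans h1.symm

theorem up_conj {t d : F} (h : Ok t d) {g : Sp4 F} {X E Y : M2 F} (hg : g.1 = fromBlocks X E 0 Y)
    (hX : Kc t d X) : IsConj (xl h) g := by
  obtain ⟨g', h1, h2⟩ := conjJ hg
  rw [neg_zero] at h2
  refine (low_conj h h2 ?_).trans h1.symm
  rw [inv_of_rel hg (Or.inr rfl)]
  exact (hX.inv h.h0).transpose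

/-- A product of two conjugates. -/
def P2 {G : Type*} [Group G] (x g : G) : Prop := ∃ a b, IsConj x a ∧ IsConj x b ∧ g = a * b

theorem P2.conj {G : Type*} [Group G] {x g g' : G} (h : IsConj g g') (h' : P2 x g') : P2 x g := by
  obtain ⟨a, b, ha, hb, rfl⟩ := h'
  obtain ⟨c, rfl⟩ := isConj_iff.1 h.symm
  exact ⟨c * a * c⁻¹, c * b * c⁻¹, ha.trans (isConj_iff.2 ⟨c, rfl⟩), hb.trans (isConj_iff.2 ⟨c, rfl⟩), by group⟩

theorem p2_of_fac {t d : F} (h : Ok t d) {g : Sp4 F} {A B C D : M2 F} (hg : g.1 = fromBlocks A B C D)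
    (hA : Fac t d A) : P2 (xl h) g := by
  obtain ⟨X, Y, hX, hY, rfl⟩ := hA
  have hX0 := hX.det_ne h.h0
  have hA0 : IsUnit (X * Y).det := by rw [det_mul]; exact (mul_ne_zero hX0 (hY.det_ne h.h0)).isUnit
  obtain ⟨S, hS, hS'⟩ : ∃ S : M2 F, Sᵀ = S ∧ S * (X * Y) = C := by
    refine ⟨C * (X * Y)⁻¹, ?_, nonsing_inv_mul_cancel_right _ _ hA0⟩
    generalize X * Y = A at hg hA0
    have h4 : A⁻¹ᵀ * Aᵀ = 1 := by rw [← transpose_mul, mul_nonsing_inv _ hA0, transpose_one]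
    have h5 := congrArg (fun Z => A⁻¹ᵀ * Z * A⁻¹) (rels hg).1
    simp only [← Matrix.mul_assoc, h4, Matrix.one_mul, mul_nonsing_inv_cancel_right _ _ hA0] at h5
    rw [transpose_mul, h5]
  let a : Sp4 F := ⟨fromBlocks X 0 (S * X) X⁻¹ᵀ,
    fromBlocks_mem_iff.2 (by simp [tr_mul_inv hX0, hS, Matrix.mul_assoc])⟩
  refine ⟨a, a⁻¹ * g, low_conj h rfl hX, up_conj h (X := Y) (E := X⁻¹ * B) (Y := -(Xᵀ * S * B) + Xᵀ * D) ?_ hY,
    by group⟩
  rw [Submonoid.coe_mul, inv_blocks (s := a) rfl, hg, fromBlocks_multiply, ← hS']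
  simp [hS, Matrix.mul_assoc, nonsing_inv_mul_cancel_left _ _ hX0.isUnit]

theorem exists_C {g : Sp4 F} (hg : g ∉ Subgroup.center (Sp4 F)) :
    ∃ g' : Sp4 F, IsConj g g' ∧ ∃ A B C D : M2 F, g'.1 = fromBlocks A B C D ∧ C ≠ 0 := by
  by_contra hn
  push Not at hn
  obtain ⟨A, B, C, D, h⟩ := blocks g
  obtain rfl := hn g (IsConj.refl g) _ _ _ _ h
  obtain rfl : B = 0 := by
    obtain ⟨g', h1, h2⟩ := conjJ h
    exact neg_eq_zero.1 (hn g' h1 _ _ _ _ h2)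
  have key : ∀ R : M2 F, Rᵀ = R → R * A = D * R := fun R hR => by
    obtain ⟨g', h1, h2⟩ := conjLo h hR
    simpa [sub_eq_zero] using hn g' h1 _ _ _ _ h2
  obtain rfl : A = D := by simpa using key 1 (by simp)
  have h1 := key !![1, 0; 0, 0] (mat_ext (by simp) (by simp) (by simp) (by simp))
  have h2 := key !![0, 1; 1, 0] (mat_ext (by simp) (by simp) (by simp) (by simp))
  have e1 := congrFun (congrFun h1 0) 1
  have e2 := congrFun (congrFun h1 1) 0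
  have e3 := congrFun (congrFun h2 0) 1
  simp [mul_apply, Fin.sum_univ_two] at e1 e2 e3
  have h3 : g.1 = A 0 0 • 1 := by
    rw [h, ← fromBlocks_one, fromBlocks_smul, smul_zero, ← eq_of_isScal ⟨e1, e2.symm, e3.symm⟩]
  refine hg (Subgroup.mem_center_iff.2 fun k => Subtype.ext ?_)
  rw [Submonoid.coe_mul, Submonoid.coe_mul, h3]
  simp

theorem exists_R {A B C D : M2 F} (h1 : Aᵀ * C = Cᵀ * A) (h3 : Aᵀ * D - Cᵀ * B = 1) (hC : C ≠ 0) :
    ∃ R : M2 F, Rᵀ = R ∧ (A + R * C).det = 1 := by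
  by_cases hd : C.det = 0
  · have e := congrFun (congrFun h1 0) 1
    have e0 := congrArg det h3
    simp only [mul_apply, Fin.sum_univ_two, transpose_apply, det_fin_two, Matrix.sub_apply, det_one] at e e0 hd
    by_cases k0 : C 0 0 * A 1 1 - C 0 1 * A 1 0 = 0
    · by_cases k1 : C 1 1 * A 0 0 - C 1 0 * A 0 1 = 0
      · exfalso
        have k2 : C 0 1 * A 0 0 - C 0 0 * A 0 1 = 0 := pow_eq_zero_iff two_ne_zero |>.1 (by
          linear_combination (C 0 1 * A 0 0 - C 0 0 * A 0 1) * e + (C 1 1 * A 0 0 - C 1 0 * A 0 1) * k0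
            - (A 0 0 * A 1 1 - A 0 1 * A 1 0) * hd)
        have k3 : C 1 0 * A 1 1 - C 1 1 * A 1 0 = 0 := by linear_combination k2 - e
        have hA : A 0 0 * A 1 1 - A 0 1 * A 1 0 ≠ 0 := fun hA => one_ne_zero (α := F) (by
          linear_combination -e0 + (D 0 0 * D 1 1 - D 0 1 * D 1 0) * hA + (B 0 0 * B 1 1 - B 0 1 * B 1 0) * hd
            - (B 0 0 * D 1 1 - B 0 1 * D 1 0) * k0 - (B 0 1 * D 0 0 - B 0 0 * D 0 1) * k2
            - (B 1 0 * D 1 1 - B 1 1 * D 1 0) * k3 - (B 1 1 * D 0 0 - B 1 0 * D 0 1) * k1)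
        refine hC (mat_ext ?_ ?_ ?_ ?_) <;> refine mul_left_cancel₀ hA ?_ <;> simp only [Matrix.zero_apply]
        · linear_combination A 0 0 * k0 + A 1 0 * k2
        · linear_combination A 0 1 * k0 + A 1 1 * k2
        · linear_combination A 0 0 * k3 + A 1 0 * k1
        · linear_combination A 0 1 * k3 + A 1 1 * k1
      · refine ⟨!![0, 0; 0, (1 - (A 0 0 * A 1 1 - A 0 1 * A 1 0)) * (C 1 1 * A 0 0 - C 1 0 * A 0 1)⁻¹],
          mat_ext (by simp) (by simp) (by simp) (by simp), ?_⟩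
        simp [det_fin_two, vecMul, dotProduct, Fin.sum_univ_two]
        linear_combination (1 - (A 0 0 * A 1 1 - A 0 1 * A 1 0)) * mul_inv_cancel₀ k1
    · refine ⟨!![(1 - (A 0 0 * A 1 1 - A 0 1 * A 1 0)) * (C 0 0 * A 1 1 - C 0 1 * A 1 0)⁻¹, 0; 0, 0],
        mat_ext (by simp) (by simp) (by simp) (by simp), ?_⟩
      simp [det_fin_two, vecMul, dotProduct, Fin.sum_univ_two]
      linear_combination (1 - (A 0 0 * A 1 1 - A 0 1 * A 1 0)) * mul_inv_cancel₀ k0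
  · have hu : IsUnit C.det := Ne.isUnit hd
    have h4 : C⁻¹ᵀ * Cᵀ = 1 := by rw [← transpose_mul, mul_nonsing_inv _ hu, transpose_one]
    have h5 := congrArg (fun Z => C⁻¹ᵀ * Z * C⁻¹) h1
    simp only [← Matrix.mul_assoc, h4, Matrix.one_mul, mul_nonsing_inv_cancel_right _ _ hu] at h5
    refine ⟨diagonal ![1, C.det⁻¹] - A * C⁻¹, by rw [transpose_sub, diagonal_transpose, transpose_mul, h5], ?_⟩
    rw [Matrix.sub_mul, nonsing_inv_mul_cancel_right _ _ hu, add_sub_cancel, det_mul, det_diagonal]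
    simp [hd]

theorem exists_det_one {g : Sp4 F} (hg : g ∉ Subgroup.center (Sp4 F)) :
    ∃ g' : Sp4 F, IsConj g g' ∧ ∃ A B C D : M2 F, g'.1 = fromBlocks A B C D ∧ A.det = 1 := by
  obtain ⟨g', h1, A, B, C, D, h2, hC⟩ := exists_C hg
  obtain ⟨R, hR, e⟩ := exists_R (rels h2).1 (rels h2).2.2 hC
  obtain ⟨g'', h3, h4⟩ := conjUp h2 hR
  exact ⟨g'', h1.trans h3, _, _, _, _, h4, e⟩

theorem p2_of_all {t d : F} (h : Ok t d) (H : ∀ A : M2 F, A.det = 1 → Fac t d A) {g : Sp4 F}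
    (hg : g ∉ Subgroup.center (Sp4 F)) : P2 (xl h) g := by
  obtain ⟨g', h1, A, B, C, D, h2, hA⟩ := exists_det_one hg
  exact (p2_of_fac h h2 (H A hA)).conj h1

theorem xl_pow (p : ℕ) [Fact p.Prime] [CharP F p] [Finite F] {t d : F} (h : Ok t d) :
    ∃ N, ¬ p ∣ N ∧ xl h ^ N = 1 := by
  let g : GL (Fin 2) F := GeneralLinearGroup.mkOfDetNeZero (SL2.comp t d) (by simpa using h.h0)
  have hg : g.1 = SL2.comp t d := rfl
  refine ⟨orderOf g, not_dvd_orderOf p (by rw [hg]; simpa using h.h3), Subtype.ext ?_⟩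
  have e : SL2.comp t d ^ orderOf g = 1 := by rw [← hg, ← Units.val_pow_eq_pow_val, pow_orderOf_eq_one, Units.val_one]
  rw [SubmonoidClass.coe_pow]
  change fromBlocks _ _ _ _ ^ _ = _
  rw [fromBlocks_diagonal_pow, ← transpose_pow, inv_pow', e, inv_one, transpose_one, fromBlocks_one]
  rfl

end Cfsg.Agent.EG
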